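import Cfsg.Agent.Lib.TCX.RM11g.C0
import Cfsg.Agent.Lib.TCX.Cert

set_option autoImplicit false
set_option maxRecDepth 100000
set_option Elab.async false

namespace Cfsg.Agent.TCX.RM11g

open Cfsg.Agent.CG

/-- The relators used. -/
noncomputable def R : List (List ℕ) := [[1,1],
  [0,0],
  [2,2],
  [0,2,0,2,0,2],
  [0,1,0,1,0,1],
  [0,1,0,2,0,1,0,2,0,1,0,2],
  [1,2,1,2,1,2]]

noncomputable def invL : List ℕ := [0,1,2]

/-- How the relators used follow from the given ones. -/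
noncomputable def hints : List (ℕ × Bool × List ℕ) := [(7,false,[]),
  (7,false,[]),
  (7,false,[]),
  (4,false,[]),
  (3,false,[]),
  (6,false,[]),
  (5,false,[])]

theorem l0all : ∀ a, a < 4 → l0f a = 0 :=
  allz_of_orR c0
theorem l0ru : allLt (rusChk R (nat_lit 3) l0R) 4 = true := by decide +kernel
noncomputable def l0W : List (List ℕ) := [[0,1,0,2,1,0,2,0,0,1,0,2,1,0,2,0,0,1,0,2,1,0,2,0],
  [0,1,0,2,1,0,2,0,0,1,0,2,0,1,2,0,1,0,1,0],
  [0,1,0,2,1,0,2,0,0,2,0,2,0,1,2,0,1,0,2,0]]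
theorem l0_ok : Mem R [] l0W :=
  mem_of_chk (q := 8) (d := 1) (s2 := 24) (full := 1) (f := l0f) (by decide +kernel) (by decide +kernel) (fun _ => rfl) l0all l0ru (by decide +kernel) (by decide +kernel)


end Cfsg.Agent.TCX.RM11g
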