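import Cfsg.Agent.Lib.TCX.RM11g.Defs

set_option autoImplicit false
set_option maxRecDepth 100000
set_option Elab.async false

namespace Cfsg.Agent.TCX.RM11g

theorem c0 : orR l0f 0 4 = 0 := by decide +kernel

end Cfsg.Agent.TCX.RM11g
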