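import Cfsg.Agent.Lib.TCX.RM11g.D0

set_option autoImplicit false
set_option maxRecDepth 100000
set_option Elab.async false

namespace Cfsg.Agent.TCX.RM11g

noncomputable def l0r0 : Bt Ru := (.node (.node (.leaf ⟨[0],1,0⟩) (.leaf ⟨[1,0,2,0,1,0,2,0,1,0,2],5,0⟩)) (.node (.leaf ⟨[2,0,2,0,2],3,0⟩) (.leaf ⟨[0],1,0⟩)))
noncomputable def l0r1 : Bt Ru := (.node (.leaf ⟨[1],0,0⟩) (.leaf ⟨[0,1,0,1,0],4,5⟩))
noncomputable def l0r2 : Bt Ru := (.node (.node (.leaf ⟨[2],2,0⟩) (.leaf ⟨[0,1,0,2,0,1,0,2,0,1,0],5,11⟩)) (.node (.leaf ⟨[0,2,0,2,0],3,5⟩) (.leaf ⟨[1,2,1,2,1],6,5⟩)))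
noncomputable def l0r3 : Bt Ru := (.node (.node (.leaf ⟨[0,1,0,1,0,1],4,0⟩) (.leaf ⟨[2,1,2,1,2,1],6,5⟩)) (.node (.leaf ⟨[0,2,0,1,0,2,0,1,0,2,0,1],5,10⟩) (.leaf ⟨[0,0],1,0⟩)))
noncomputable def l0T : List (Bt Nat) := [l0t0, l0t1, l0t2, l0t3, l0t4]
noncomputable def l0R : List (Bt Ru) := [l0r0, l0r1, l0r2, l0r3]
noncomputable def l0c (a lo cnt : Nat) : Nat := chk (gT l0T (nat_lit 14)) (rT l0R) (nat_lit 14) (nat_lit 0x7fc0) (nat_lit 0x4000) (nat_lit 0x3fc0) (nat_lit 3) (nat_lit 15) (nat_lit 511) (nat_lit 0x8000000000ffffff) (nat_lit 6) (nat_lit 10) (nat_lit 0) (nat_lit 0x4000) a (nfOf [] 0 a) lo cnt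
noncomputable def l0f (a : Nat) : Nat := l0c a 0 1
noncomputable def l0m (lo cnt : Nat) : Nat := chkM (gT l0T (nat_lit 14)) (nat_lit 14) (nat_lit 0x7fc0) (nat_lit 0x4000) (nat_lit 0x3fc0) (nat_lit 3) lo cnt

end Cfsg.Agent.TCX.RM11g
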